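import Mathlib

namespace Cfsg.Agent.Kz

open Matrix

variable {ι : Type} [Fintype ι]

/-- prepend a row -/
def consRow {n : ℕ} (r : ι → ℤ) (b : Matrix (Fin n) ι ℤ) : Matrix (Fin (n + 1)) ι ℤ :=
  Matrix.of (Fin.cons r fun i => b i)

omit [Fintype ι] in
@[simp] lemma consRow_zero {n : ℕ} (r : ι → ℤ) (b : Matrix (Fin n) ι ℤ) : consRow r b 0 = r := rfl

omit [Fintype ι] in
@[simp] lemma consRow_succ {n : ℕ} (r : ι → ℤ) (b : Matrix (Fin n) ι ℤ) (i : Fin n) :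
    consRow r b i.succ = b i := rfl

lemma gram_apply {n : ℕ} (b : Matrix (Fin n) ι ℤ) (i j : Fin n) : (b * bᵀ) i j = b i ⬝ᵥ b j := rfl

lemma det_gram_mul {n : ℕ} (T : Matrix (Fin n) (Fin n) ℤ) (b : Matrix (Fin n) ι ℤ) :
    ((T * b) * (T * b)ᵀ).det = T.det ^ 2 * (b * bᵀ).det := by
  rw [Matrix.transpose_mul, Matrix.mul_assoc, ← Matrix.mul_assoc b, det_mul, det_mul, det_transpose]
  ring

lemma det_gram_cons {n : ℕ} (r : ι → ℤ) (b : Matrix (Fin n) ι ℤ) (h : ∀ i, r ⬝ᵥ b i = 0) :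
    (consRow r b * (consRow r b)ᵀ).det = (r ⬝ᵥ r) * (b * bᵀ).det := by
  rw [det_succ_row_zero, Fin.sum_univ_succ]
  have h1 : ∀ j : Fin n, (consRow r b * (consRow r b)ᵀ) 0 j.succ = 0 := fun j => by
    rw [gram_apply]; simpa using h j
  simp only [h1, mul_zero, zero_mul, Finset.sum_const_zero, add_zero]
  have h2 : (consRow r b * (consRow r b)ᵀ).submatrix Fin.succ (Fin.succAbove 0) = b * bᵀ := by
    ext i j; simp [gram_apply]
  rw [h2, gram_apply]; simp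

/-- block lower triangular matrix -/
def low {n : ℕ} (c : Fin n → ℤ) (M : Matrix (Fin n) (Fin n) ℤ) :
    Matrix (Fin (n + 1)) (Fin (n + 1)) ℤ :=
  Matrix.of (Fin.cons (Fin.cons 1 fun _ => 0) fun i => Fin.cons (c i) (M i))

lemma det_low {n : ℕ} (c : Fin n → ℤ) (M : Matrix (Fin n) (Fin n) ℤ) : (low c M).det = M.det := by
  rw [det_succ_row_zero, Fin.sum_univ_succ]
  have h1 : ∀ j : Fin n, low c M 0 j.succ = 0 := fun j => rfl
  simp only [h1, mul_zero, zero_mul, Finset.sum_const_zero, add_zero]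
  have h2 : (low c M).submatrix Fin.succ (Fin.succAbove 0) = M := by
    ext i j; simp [low]
  have h3 : low c M 0 0 = 1 := rfl
  rw [h2, h3]; simp

omit [Fintype ι] in
lemma low_mul_zero {n : ℕ} (c : Fin n → ℤ) (M : Matrix (Fin n) (Fin n) ℤ)
    (b : Matrix (Fin (n + 1)) ι ℤ) : (low c M * b) 0 = b 0 := by
  ext k; simp [low, Matrix.mul_apply, Fin.sum_univ_succ]

omit [Fintype ι] in
lemma low_mul_succ {n : ℕ} (c : Fin n → ℤ) (M : Matrix (Fin n) (Fin n) ℤ)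
    (b : Matrix (Fin (n + 1)) ι ℤ) (i : Fin n) :
    (low c M * b) i.succ = c i • b 0 + ∑ j, M i j • b j.succ := by
  ext k; simp [low, Matrix.mul_apply, Fin.sum_univ_succ, Finset.sum_apply]

/-- the projected family -/
def proj {n : ℕ} (α : ℤ) (β : Fin n → ℤ) (b : Matrix (Fin (n + 1)) ι ℤ) : Matrix (Fin n) ι ℤ :=
  Matrix.of fun i => α • b i.succ - β i • b 0

omit [Fintype ι] in
lemma proj_row {n : ℕ} (α : ℤ) (β : Fin n → ℤ) (b : Matrix (Fin (n + 1)) ι ℤ) (i : Fin n) :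
    proj α β b i = α • b i.succ - β i • b 0 := rfl

lemma proj_orth {n : ℕ} (α : ℤ) (β : Fin n → ℤ) (b : Matrix (Fin (n + 1)) ι ℤ)
    (h : ∀ i, α * (b 0 ⬝ᵥ b i.succ) = β i * (b 0 ⬝ᵥ b 0)) (i : Fin n) :
    b 0 ⬝ᵥ proj α β b i = 0 := by
  rw [proj_row, dotProduct_sub, dotProduct_smul, dotProduct_smul, smul_eq_mul, smul_eq_mul, h i,
    sub_self]

lemma det_proj {n : ℕ} (α : ℤ) (β : Fin n → ℤ) (b : Matrix (Fin (n + 1)) ι ℤ)
    (h : ∀ i, α * (b 0 ⬝ᵥ b i.succ) = β i * (b 0 ⬝ᵥ b 0)) :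
    (b 0 ⬝ᵥ b 0) * (proj α β b * (proj α β b)ᵀ).det = α ^ (2 * n) * (b * bᵀ).det := by
  have e : low (fun i => -β i) (α • (1 : Matrix (Fin n) (Fin n) ℤ)) * b
      = consRow (b 0) (proj α β b) := by
    ext i k
    refine Fin.cases ?_ (fun i => ?_) i
    · rw [low_mul_zero]; rfl
    · rw [low_mul_succ, consRow_succ, proj_row]
      simp [Matrix.one_apply, Finset.sum_apply]
      ring
  rw [← det_gram_cons _ _ (proj_orth α β b h), ← e, det_gram_mul, det_low, det_smul]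
  simp [pow_mul, mul_comm]

lemma dot_self_nonneg (v : ι → ℤ) : 0 ≤ v ⬝ᵥ v :=
  Finset.sum_nonneg fun i _ => mul_self_nonneg (v i)

lemma dot_self_pos {n : ℕ} (b : Matrix (Fin n) ι ℤ) (h : (b * bᵀ).det ≠ 0) (i : Fin n) :
    0 < b i ⬝ᵥ b i := by
  refine lt_of_le_of_ne (dot_self_nonneg _) fun h0 => h ?_
  have hz : b i = 0 := dotProduct_self_eq_zero.1 h0.symm
  refine det_eq_zero_of_row_eq_zero i fun j => ?_
  rw [gram_apply, hz, zero_dotProduct]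

/-- triangular numbers -/
def tri : ℕ → ℕ
  | 0 => 0
  | n + 1 => tri n + (n + 1)

theorem hermite : ∀ (n : ℕ) (b : Matrix (Fin (n + 1)) ι ℤ), (b * bᵀ).det ≠ 0 →
    ∃ T : Matrix (Fin (n + 1)) (Fin (n + 1)) ℤ, T.det ^ 2 = 1 ∧
      3 ^ tri n * ((T * b) 0 ⬝ᵥ (T * b) 0) ^ (n + 1) ≤ 4 ^ tri n * (b * bᵀ).det := by
  intro n
  induction n with
  | zero =>
    intro b _
    refine ⟨1, by simp, ?_⟩
    rw [Matrix.one_mul, det_succ_row_zero]; simp [tri, gram_apply]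
  | succ n ih =>
    intro b hb
    classical
    have hex : ∃ m : ℕ, ∃ T : Matrix (Fin (n + 2)) (Fin (n + 2)) ℤ, T.det ^ 2 = 1 ∧
        (T * b) 0 ⬝ᵥ (T * b) 0 = m :=
      ⟨_, 1, by simp, (Int.toNat_of_nonneg (dot_self_nonneg _)).symm⟩
    obtain ⟨T, hT, hm⟩ := Nat.find_spec hex
    have hmin : ∀ S : Matrix (Fin (n + 2)) (Fin (n + 2)) ℤ, S.det ^ 2 = 1 →
        (T * b) 0 ⬝ᵥ (T * b) 0 ≤ (S * (T * b)) 0 ⬝ᵥ (S * (T * b)) 0 := by
      intro S hS
      have := Nat.find_min' hex (m := ((S * (T * b)) 0 ⬝ᵥ (S * (T * b)) 0).toNat)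
        ⟨S * T, by rw [det_mul, mul_pow, hS, hT, one_mul], by
          rw [Matrix.mul_assoc]; exact (Int.toNat_of_nonneg (dot_self_nonneg _)).symm⟩
      have h2 := Int.toNat_of_nonneg (dot_self_nonneg ((S * (T * b)) 0))
      omega
    refine ⟨T, hT, ?_⟩
    have hd : ((T * b) * (T * b)ᵀ).det = (b * bᵀ).det := by rw [det_gram_mul, hT, one_mul]
    rw [← hd] at hb ⊢
    generalize T * b = c at hb hmin ⊢
    set μ := c 0 ⬝ᵥ c 0 with hμ
    have hpos : 0 < μ := dot_self_pos c hb 0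
    have horth : ∀ i : Fin (n + 1), μ * (c 0 ⬝ᵥ c i.succ) = (c 0 ⬝ᵥ c i.succ) * (c 0 ⬝ᵥ c 0) :=
      fun i => mul_comm _ _
    have hdp := det_proj μ (fun i => c 0 ⬝ᵥ c i.succ) c horth
    rw [← hμ] at hdp
    have hne : (proj μ (fun i => c 0 ⬝ᵥ c i.succ) c *
        (proj μ (fun i => c 0 ⬝ᵥ c i.succ) c)ᵀ).det ≠ 0 := by
      intro h0
      rw [h0, mul_zero] at hdp
      exact mul_ne_zero (pow_ne_zero _ hpos.ne') hb hdp.symm
    obtain ⟨T', hT', hle⟩ := ih _ hne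
    set w : ι → ℤ := ∑ j, T' 0 j • c j.succ with hw
    set s := c 0 ⬝ᵥ w with hs
    have hrow : (T' * proj μ (fun i => c 0 ⬝ᵥ c i.succ) c) 0 = μ • w - s • c 0 := by
      have : s = ∑ j, T' 0 j * (c 0 ⬝ᵥ c j.succ) := by
        rw [hs, hw, dotProduct_sum]
        exact Finset.sum_congr rfl fun j _ => by rw [dotProduct_smul, smul_eq_mul]
      ext k
      simp only [Matrix.mul_apply, proj_row, hw, this, Pi.sub_apply, Pi.smul_apply, smul_eq_mul,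
        Finset.sum_apply, Finset.mul_sum, Finset.sum_mul, ← Finset.sum_sub_distrib]
      exact Finset.sum_congr rfl fun j _ => by ring
    rw [hrow] at hle
    obtain ⟨r, hr⟩ : ∃ r : ℤ, 4 * (s - r * μ) ^ 2 ≤ μ ^ 2 := by
      refine ⟨(2 * s + μ) / (2 * μ), ?_⟩
      have h1 := Int.mul_ediv_add_emod (2 * s + μ) (2 * μ)
      have h2 := Int.emod_nonneg (2 * s + μ) (b := 2 * μ) (by omega)
      have h3 := Int.emod_lt_of_pos (2 * s + μ) (b := 2 * μ) (by omega)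
      generalize (2 * s + μ) / (2 * μ) = r at *
      generalize (2 * s + μ) % (2 * μ) = t at *
      have : 2 * (s - r * μ) = t - μ := by linarith
      nlinarith
    have hS := hmin ((low (fun _ => -r) T').submatrix (Equiv.swap 0 1) id) (by
      rw [det_permute, mul_pow, det_low, hT', mul_one]
      rcases Int.units_eq_one_or (Equiv.Perm.sign (Equiv.swap (0 : Fin (n + 2)) 1)) with h | h <;>
        simp [h])
    have hrow2 : (((low (fun _ => -r) T').submatrix (Equiv.swap 0 1) id) * c) 0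
        = (-r) • c 0 + w := by
      rw [hw, ← low_mul_succ (fun _ => -r) T' c 0]
      ext k
      simp [Matrix.mul_apply]
    rw [hrow2] at hS
    have e1 : ((-r) • c 0 + w) ⬝ᵥ ((-r) • c 0 + w) = r ^ 2 * μ - 2 * r * s + w ⬝ᵥ w := by
      simp only [add_dotProduct, dotProduct_add, smul_dotProduct, dotProduct_smul, smul_eq_mul,
        dotProduct_comm w (c 0), ← hs, ← hμ]
      ring
    have e2 : (μ • w - s • c 0) ⬝ᵥ (μ • w - s • c 0) = μ * (μ * (w ⬝ᵥ w) - s ^ 2) := by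
      simp only [sub_dotProduct, dotProduct_sub, smul_dotProduct, dotProduct_smul, smul_eq_mul,
        dotProduct_comm w (c 0), ← hs, ← hμ]
      ring
    rw [e1] at hS
    rw [e2] at hle
    have k1 : 3 * μ ^ 2 ≤ 4 * (μ * (w ⬝ᵥ w) - s ^ 2) := by nlinarith
    have k2 : 3 * μ ^ 3 ≤ 4 * (μ * (μ * (w ⬝ᵥ w) - s ^ 2)) := by nlinarith
    generalize μ * (μ * (w ⬝ᵥ w) - s ^ 2) = ν at hle k2
    have k3 : (3 * μ ^ 3) ^ (n + 1) ≤ (4 * ν) ^ (n + 1) :=
      pow_le_pow_left₀ (by positivity) k2 _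
    generalize (proj μ (fun i => c 0 ⬝ᵥ c i.succ) c *
        (proj μ (fun i => c 0 ⬝ᵥ c i.succ) c)ᵀ).det = D' at hle hdp
    generalize (c * cᵀ).det = D at hdp
    have hp2 : 0 < μ ^ (2 * (n + 1)) := by positivity
    refine le_of_mul_le_mul_left ?_ hp2
    have k4 : μ * (3 ^ tri n * (3 * μ ^ 3) ^ (n + 1)) ≤ μ * (4 ^ (n + 1) * (4 ^ tri n * D')) := by
      refine mul_le_mul_of_nonneg_left ?_ hpos.le
      calc 3 ^ tri n * (3 * μ ^ 3) ^ (n + 1) ≤ 3 ^ tri n * (4 * ν) ^ (n + 1) :=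
            mul_le_mul_of_nonneg_left k3 (by positivity)
        _ = 4 ^ (n + 1) * (3 ^ tri n * ν ^ (n + 1)) := by ring
        _ ≤ _ := mul_le_mul_of_nonneg_left hle (by positivity)
    calc μ ^ (2 * (n + 1)) * (3 ^ tri (n + 1) * μ ^ (n + 1 + 1))
        = μ * (3 ^ tri n * (3 * μ ^ 3) ^ (n + 1)) := by simp only [tri]; ring
      _ ≤ _ := k4
      _ = 4 ^ tri (n + 1) * (μ * D') := by simp only [tri]; ring
      _ = _ := by rw [hdp]; ring

omit [Fintype ι] in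
lemma mul_row_mem {n : ℕ} (Λ : Submodule ℤ (ι → ℤ)) (T : Matrix (Fin n) (Fin n) ℤ)
    (b : Matrix (Fin n) ι ℤ) (hb : ∀ i, b i ∈ Λ) (i : Fin n) : (T * b) i ∈ Λ := by
  have : (T * b) i = ∑ j, T i j • b j := by
    ext k; simp [Matrix.mul_apply, Finset.sum_apply]
  rw [this]
  exact Λ.sum_mem fun j _ => Λ.smul_mem _ (hb j)

theorem unimod (q : ℤ) (hq : 0 < q) : ∀ (n : ℕ), n ≤ 5 → ∀ (Λ : Submodule ℤ (ι → ℤ)),
    (∀ u ∈ Λ, ∀ v ∈ Λ, q ∣ u ⬝ᵥ v) → ∀ (b : Matrix (Fin n) ι ℤ), (∀ i, b i ∈ Λ) →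
    (b * bᵀ).det = q ^ n → ∃ c : Matrix (Fin n) ι ℤ, (∀ i, c i ∈ Λ) ∧
      ∀ i j, c i ⬝ᵥ c j = if i = j then q else 0 := by
  intro n
  induction n with
  | zero => intro _ Λ _ b hb _; exact ⟨b, hb, fun i => i.elim0⟩
  | succ n ih =>
    intro hn Λ hΛ b hb hd
    obtain ⟨T, hT, hle⟩ := hermite n b (by rw [hd]; positivity)
    have hd' : ((T * b) * (T * b)ᵀ).det = q ^ (n + 1) := by rw [det_gram_mul, hT, one_mul, hd]
    have hc := mul_row_mem Λ T b hb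
    rw [hd] at hle
    generalize T * b = c at hle hd' hc
    have hpos := dot_self_pos c (by rw [hd']; positivity) 0
    obtain ⟨t, ht⟩ := hΛ _ (hc 0) _ (hc 0)
    have ht1 : t = 1 := by
      rw [ht] at hpos hle
      have h0 : 0 < t := by
        by_contra h'
        nlinarith
      by_contra hne
      have h2 : (2 : ℤ) ^ (n + 1) ≤ t ^ (n + 1) := pow_le_pow_left₀ (by norm_num) (by omega) _
      have h3 : q ^ (n + 1) * (3 ^ tri n * t ^ (n + 1)) ≤ q ^ (n + 1) * 4 ^ tri n := by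
        calc _ = 3 ^ tri n * (q * t) ^ (n + 1) := by ring
          _ ≤ _ := hle
          _ = _ := by ring
      have h4 := le_of_mul_le_mul_left h3 (by positivity)
      have h5 : (3 : ℤ) ^ tri n * 2 ^ (n + 1) ≤ 4 ^ tri n :=
        le_trans (mul_le_mul_of_nonneg_left h2 (by positivity)) h4
      have hn' : n ≤ 4 := by omega
      interval_cases n <;> simp [tri] at h5
    rw [ht1, mul_one] at ht
    choose β hβ using fun i : Fin n => hΛ _ (hc 0) _ (hc i.succ)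
    have horth : ∀ i : Fin n, 1 * (c 0 ⬝ᵥ c i.succ) = β i * (c 0 ⬝ᵥ c 0) := fun i => by
      rw [hβ, ht]; ring
    have hdp := det_proj 1 β c horth
    rw [ht, hd', one_pow, one_mul, pow_succ'] at hdp
    let Λ' : Submodule ℤ (ι → ℤ) :=
      { carrier := {u | u ∈ Λ ∧ c 0 ⬝ᵥ u = 0}
        add_mem' := fun ha hb => ⟨Λ.add_mem ha.1 hb.1, by rw [dotProduct_add, ha.2, hb.2, add_zero]⟩
        zero_mem' := ⟨Λ.zero_mem, dotProduct_zero _⟩
        smul_mem' := fun r x hx => ⟨Λ.smul_mem r hx.1, by rw [dotProduct_smul, hx.2, smul_zero]⟩ }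
    obtain ⟨c', h1, h2⟩ := ih (by omega) Λ' (fun u hu v hv => hΛ u hu.1 v hv.1) (proj 1 β c)
      (fun i => ⟨Λ.sub_mem (Λ.smul_mem _ (hc _)) (Λ.smul_mem _ (hc _)), proj_orth 1 β c horth i⟩)
      (mul_left_cancel₀ hq.ne' hdp)
    refine ⟨consRow (c 0) c', fun i => Fin.cases (hc 0) (fun i => (h1 i).1) i, fun i j => ?_⟩
    refine Fin.cases ?_ (fun i => ?_) i <;> refine Fin.cases ?_ (fun j => ?_) j
    · simpa using ht
    · rw [if_neg (Fin.succ_ne_zero j).symm]; exact (h1 j).2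
    · rw [if_neg (Fin.succ_ne_zero i), dotProduct_comm]; exact (h1 i).2
    · simp only [consRow_succ, h2, Fin.succ_inj]

lemma sq_emod_four (x : ℤ) : x * x % 4 = x % 2 := by
  obtain ⟨k, rfl | rfl⟩ := Int.even_or_odd' x
  · have : 2 * k * (2 * k) = 4 * (k * k) := by ring
    omega
  · have : (2 * k + 1) * (2 * k + 1) = 4 * (k * k + k) + 1 := by ring
    omega

lemma odd_mul_emod (x z : ℤ) (h : x % 2 = 1) : x * z % 2 = z % 2 := by
  rw [Int.mul_emod, h]; simp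

/-- normalised form: `a 0 = 1` -/
theorem neighbour5' (p : ℕ) (hp : p.Prime) (hodd : p ≠ 2) (a : Fin 5 → ℤ)
    (h : (p : ℤ) ^ 2 ∣ a ⬝ᵥ a) (h0 : a 0 = 1) (β : ℤ) (h1 : (p : ℤ) ∣ 1 - β * a 1) :
    ∃ (y : Fin 5 → ℤ) (c : ℤ), ¬ (p : ℤ) ∣ c ∧ (∀ i, (p : ℤ) ∣ y i - c * a i) ∧
      y ⬝ᵥ y = (p : ℤ) ^ 2 ∧ y 0 % 2 = 1 ∧ ∀ i, i ≠ 0 → y i % 2 = 0 := by
  have hp0 : (0 : ℤ) < p := by exact_mod_cast hp.pos
  have hp1 : (1 : ℤ) < p := by exact_mod_cast hp.one_lt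
  have hpo : (p : ℤ) % 2 = 1 := by
    have := hp.eq_two_or_odd.resolve_left hodd
    omega
  let Λ : Submodule ℤ (Fin 5 → ℤ) :=
    { carrier := {u | (∃ (c : ℤ) (x : Fin 5 → ℤ), u = c • a + (p : ℤ) • x) ∧ (p : ℤ) ^ 2 ∣ u ⬝ᵥ a}
      add_mem' := by
        rintro u v ⟨⟨c, x, hu⟩, hu'⟩ ⟨⟨d, z, hv⟩, hv'⟩
        refine ⟨⟨c + d, x + z, by rw [hu, hv, add_smul, smul_add]; abel⟩, ?_⟩
        rw [add_dotProduct]; exact dvd_add hu' hv'
      zero_mem' := ⟨⟨0, 0, by simp⟩, by simp⟩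
      smul_mem' := by
        rintro r u ⟨⟨c, x, hu⟩, hu'⟩
        refine ⟨⟨r * c, r • x, by rw [hu, smul_add, mul_smul, smul_comm r (p : ℤ)]⟩, ?_⟩
        rw [smul_dotProduct]; exact Dvd.dvd.mul_left hu' r }
  have hΛ : ∀ u ∈ Λ, ∀ v ∈ Λ, (p : ℤ) ^ 2 ∣ u ⬝ᵥ v := by
    rintro u ⟨⟨c, x, hu⟩, hu'⟩ v ⟨⟨d, z, hv⟩, hv'⟩
    have e : u ⬝ᵥ v = d * (u ⬝ᵥ a) + c * (v ⬝ᵥ a) - c * d * (a ⬝ᵥ a) + (p : ℤ) ^ 2 * (x ⬝ᵥ z) := by
      rw [hu, hv]
      simp only [add_dotProduct, dotProduct_add, smul_dotProduct, dotProduct_smul, smul_eq_mul,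
        dotProduct_comm a z]
      ring
    rw [e]
    exact dvd_add (dvd_sub (dvd_add (hu'.mul_left _) (hv'.mul_left _)) (h.mul_left _))
      (dvd_mul_right _ _)
  obtain ⟨s, hs⟩ := h
  obtain ⟨γ, hγ⟩ := h1
  simp only [dotProduct, Fin.sum_univ_five, h0] at hs
  let B : Matrix (Fin 5) (Fin 5) ℤ :=
    !![(p : ℤ) ^ 2, 0, 0, 0, 0;
       -(a 1 + β * (a 2 * a 2 + a 3 * a 3 + a 4 * a 4)), 1, β * a 2, β * a 3, β * a 4;
       -(p * a 2), 0, p, 0, 0;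
       -(p * a 3), 0, 0, p, 0;
       -(p * a 4), 0, 0, 0, p]
  have hB : ∀ i, B i ∈ Λ := by
    intro i
    fin_cases i
    · refine ⟨⟨0, ![p, 0, 0, 0, 0], ?_⟩, ?_⟩
      · ext k; fin_cases k <;> simp [B, sq]
      · simp [B, dotProduct, Fin.sum_univ_five, h0]
    · refine ⟨⟨β, ![-(γ * a 1) - β * p * s, γ, 0, 0, 0], ?_⟩, ?_⟩
      · ext k; fin_cases k <;> simp [B, h0]
        · linear_combination (-β) * hs - a 1 * hγ
        · linear_combination hγ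
      · refine ⟨0, ?_⟩
        simp [B, dotProduct, Fin.sum_univ_five, h0]; ring
    · refine ⟨⟨0, ![-a 2, 0, 1, 0, 0], ?_⟩, 0, ?_⟩
      · ext k; fin_cases k <;> simp [B]
      · simp [B, dotProduct, Fin.sum_univ_five, h0]
    · refine ⟨⟨0, ![-a 3, 0, 0, 1, 0], ?_⟩, 0, ?_⟩
      · ext k; fin_cases k <;> simp [B]
      · simp [B, dotProduct, Fin.sum_univ_five, h0]
    · refine ⟨⟨0, ![-a 4, 0, 0, 0, 1], ?_⟩, 0, ?_⟩
      · ext k; fin_cases k <;> simp [B]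
      · simp [B, dotProduct, Fin.sum_univ_five, h0]
  have hdet : B.det = (p : ℤ) ^ 5 := by
    simp [B, det_succ_row_zero, Fin.sum_univ_succ, Fin.succAbove]; ring
  obtain ⟨C, hC, hCC⟩ := unimod ((p : ℤ) ^ 2) (by positivity) 5 le_rfl Λ hΛ B hB (by
    rw [det_mul, det_transpose, hdet]; ring)
  have hG : C * Cᵀ = ((p : ℤ) ^ 2) • (1 : Matrix (Fin 5) (Fin 5) ℤ) := by
    ext i j; rw [gram_apply, hCC]; simp [Matrix.one_apply]
  have hdC : C.det * C.det = (p : ℤ) ^ 10 := by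
    have := congrArg det hG
    rw [det_mul, det_transpose, det_smul] at this
    rw [this]; simp; ring
  obtain ⟨j, hj⟩ : ∃ j, C j 0 % 2 = 1 := by
    by_contra hno
    push Not at hno
    have h2 : (2 : ℤ) ∣ C.det := by
      rw [det_succ_column_zero]
      refine Finset.dvd_sum fun i _ => Dvd.dvd.mul_right (Dvd.dvd.mul_left ?_ _) _
      have := hno i
      omega
    have h3 : (2 : ℤ) ∣ (p : ℤ) ^ 10 := hdC ▸ h2.mul_right _
    have := Int.prime_two.dvd_of_dvd_pow h3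
    omega
  obtain ⟨j', hj'⟩ := exists_ne j
  have n1 := hCC j j
  have n2 := hCC j' j'
  have n3 := hCC j j'
  rw [if_pos rfl] at n1 n2
  rw [if_neg hj'.symm] at n3
  obtain ⟨⟨c, x, hx⟩, hya⟩ := hC j
  generalize C j' = z at n2 n3
  generalize C j = y at n1 n3 hj hx hya
  have hp4 : (p : ℤ) ^ 2 % 4 = 1 := by rw [sq, sq_emod_four, hpo]
  refine ⟨y, c, ?_, fun i => ⟨x i, by rw [hx]; simp⟩, n1, hj, ?_⟩
  · rintro ⟨d, rfl⟩
    have hy : y = (p : ℤ) • (d • a + x) := by rw [hx, mul_smul, smul_add]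
    generalize d • a + x = u at hy
    subst hy
    rw [smul_dotProduct, dotProduct_smul, smul_eq_mul, smul_eq_mul, ← mul_assoc, ← sq] at n1
    have hu : u ⬝ᵥ u = 1 := by
      have : (p : ℤ) ^ 2 * (u ⬝ᵥ u) = (p : ℤ) ^ 2 * 1 := by rw [n1, mul_one]
      exact mul_left_cancel₀ (by positivity) this
    rw [smul_dotProduct, smul_eq_mul, sq] at hya
    have hua := Int.dvd_of_mul_dvd_mul_left hp0.ne' hya
    simp only [dotProduct, Fin.sum_univ_five, h0] at hu hua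
    have hu0 : u 0 ≠ 0 := by
      intro h'; simp [h'] at hj
    have q0 : 0 < u 0 * u 0 := mul_self_pos.2 hu0
    have q1 := mul_self_nonneg (u 1)
    have q2 := mul_self_nonneg (u 2)
    have q3 := mul_self_nonneg (u 3)
    have q4 := mul_self_nonneg (u 4)
    have z1 : u 1 = 0 := mul_self_eq_zero.1 (by omega)
    have z2 : u 2 = 0 := mul_self_eq_zero.1 (by omega)
    have z3 : u 3 = 0 := mul_self_eq_zero.1 (by omega)
    have z4 : u 4 = 0 := mul_self_eq_zero.1 (by omega)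
    have z0 : u 0 * u 0 = 1 := by omega
    rw [z1, z2, z3, z4] at hua
    have : (p : ℤ) ∣ 1 := by
      rw [← z0]; exact Dvd.dvd.mul_right (by simpa using hua) _
    have := Int.le_of_dvd one_pos this
    omega
  · simp only [dotProduct, Fin.sum_univ_five] at n1 n2 n3
    have a0 := sq_emod_four (y 0)
    have a1 := sq_emod_four (y 1)
    have a2 := sq_emod_four (y 2)
    have a3 := sq_emod_four (y 3)
    have a4 := sq_emod_four (y 4)
    have hw : (y 1 % 2 = 0 ∧ y 2 % 2 = 0 ∧ y 3 % 2 = 0 ∧ y 4 % 2 = 0) ∨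
        (y 1 % 2 = 1 ∧ y 2 % 2 = 1 ∧ y 3 % 2 = 1 ∧ y 4 % 2 = 1) := by omega
    rcases hw with ⟨w1, w2, w3, w4⟩ | ⟨w1, w2, w3, w4⟩
    · intro i hi
      fin_cases i
      · exact absurd rfl hi
      · exact w1
      · exact w2
      · exact w3
      · exact w4
    · exfalso
      have b0 := sq_emod_four (z 0)
      have b1 := sq_emod_four (z 1)
      have b2 := sq_emod_four (z 2)
      have b3 := sq_emod_four (z 3)
      have b4 := sq_emod_four (z 4)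
      have c0 := odd_mul_emod _ (z 0) hj
      have c1 := odd_mul_emod _ (z 1) w1
      have c2 := odd_mul_emod _ (z 2) w2
      have c3 := odd_mul_emod _ (z 3) w3
      have c4 := odd_mul_emod _ (z 4) w4
      omega

theorem neighbour5 (p : ℕ) (hp : p.Prime) (hodd : p ≠ 2) (a : Fin 5 → ℤ)
    (h : (p:ℤ)^2 ∣ ∑ i, a i ^ 2) (h0 : ¬ (p:ℤ) ∣ a 0) (h1 : ¬ (p:ℤ) ∣ a 1) :
    ∃ (y : Fin 5 → ℤ) (c : ℤ), ¬ (p:ℤ) ∣ c ∧ (∀ i, (p:ℤ) ∣ y i - c * a i) ∧
      ∑ i, y i ^ 2 = (p:ℤ)^2 ∧ Odd (y 0) ∧ ∀ i, i ≠ 0 → Even (y i) := by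
  have hP : Prime (p : ℤ) := Nat.prime_iff_prime_int.1 hp
  obtain ⟨k, l, hkl⟩ : IsCoprime (a 0) ((p : ℤ) ^ 2) :=
    ((Prime.coprime_iff_not_dvd hP).2 h0).symm.pow_right
  have hk : ¬ (p : ℤ) ∣ k := fun hd => hP.not_dvd_one (by
    rw [← hkl]; exact dvd_add (hd.mul_right _) (Dvd.dvd.mul_left (dvd_pow_self _ two_ne_zero) _))
  obtain ⟨β, m, hβ⟩ : IsCoprime (k * a 1) (p : ℤ) :=
    ((Prime.coprime_iff_not_dvd hP).2 fun hd => (hP.dvd_or_dvd hd).elim hk h1).symm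
  obtain ⟨s, hs⟩ := h
  rw [Fin.sum_univ_five] at hs
  obtain ⟨y, c, hc, hy, hn, hy0, hyi⟩ := neighbour5' p hp hodd
    ![1, k * a 1, k * a 2, k * a 3, k * a 4]
    ⟨k ^ 2 * s + l * (1 + k * a 0), by
      simp [dotProduct, Fin.sum_univ_five]
      linear_combination k ^ 2 * hs - (1 + k * a 0) * hkl⟩ rfl β
    ⟨m, by simp; linear_combination -hβ⟩
  refine ⟨y, c * k, fun hd => (hP.dvd_or_dvd hd).elim hc hk, fun i => ?_, ?_,
    Int.odd_iff.2 hy0, fun i hi => Int.even_iff.2 (hyi i hi)⟩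
  · have := hy i
    fin_cases i
    · simp at this ⊢
      have e : y 0 - c * k * a 0 = y 0 - c + p * (c * l * p) := by linear_combination (-c) * hkl
      rw [e]; exact dvd_add this (dvd_mul_right _ _)
    all_goals simpa [mul_assoc] using this
  · rw [← hn]; simp [dotProduct, sq]

end Cfsg.Agent.Kz
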